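import Cfsg.Agent.H860.JM.Geom

/-!
# Conjugates of subgroups
-/

set_option autoImplicit false

namespace Cfsg.Agent.H860.JM

variable {G : Type*} [Group G]

theorem cj_cj (g h : G) (P : Subgroup G) : cj g (cj h P) = cj (g * h) P := by
  rw [cj, cj, cj, Subgroup.map_map]
  refine congrArg (fun f => Subgroup.map f P) (MonoidHom.ext fun u => ?_)
  show g * (h * u * h⁻¹) * g⁻¹ = g * h * u * (g * h)⁻¹
  group

theorem mem_cj {g x : G} {P : Subgroup G} : x ∈ cj g P ↔ g⁻¹ * x * g ∈ P := by
  rw [cj, Subgroup.mem_map]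
  constructor
  · rintro ⟨y, hy, rfl⟩
    have : g⁻¹ * (MulAut.conj g).toMonoidHom y * g = y := by
      show g⁻¹ * (g * y * g⁻¹) * g = y
      group
    rw [this]; exact hy
  · intro h
    refine ⟨_, h, ?_⟩
    show g * (g⁻¹ * x * g) * g⁻¹ = x
    group

theorem card_cj (g : G) (P : Subgroup G) : Nat.card (cj g P) = Nat.card P :=
  (Nat.card_congr (P.equivMapOfInjective (MulAut.conj g).toMonoidHom
    (MulAut.conj g).injective).toEquiv).symm

theorem cj_eq_iff {g : G} {P : Subgroup G} : cj g P = P ↔ g ∈ Subgroup.normalizer (P : Set G) := by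
  constructor
  · intro h
    rw [Subgroup.mem_normalizer_iff]
    intro x
    have h1 := mem_cj (g := g) (x := g * x * g⁻¹) (P := P)
    rw [h] at h1
    have h2 : g⁻¹ * (g * x * g⁻¹) * g = x := by group
    rw [h2] at h1
    exact h1.symm
  · intro h
    ext x
    rw [mem_cj]
    have h1 := (Subgroup.mem_normalizer_iff.1 h) (g⁻¹ * x * g)
    have h2 : g * (g⁻¹ * x * g) * g⁻¹ = x := by group
    rw [h2] at h1
    exact h1

theorem centralizer_cj (g : G) (P : Subgroup G) :
    Subgroup.centralizer (cj g P : Set G) = cj g (Subgroup.centralizer (P : Set G)) := by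
  ext x
  rw [mem_cj, Subgroup.mem_centralizer_iff, Subgroup.mem_centralizer_iff]
  constructor
  · intro h y hy
    have h1 := h (g * y * g⁻¹) (by
      rw [SetLike.mem_coe, mem_cj]
      have : g⁻¹ * (g * y * g⁻¹) * g = y := by group
      rw [this]; exact hy)
    calc y * (g⁻¹ * x * g) = g⁻¹ * (g * y * g⁻¹ * x) * g := by group
      _ = g⁻¹ * (x * (g * y * g⁻¹)) * g := by rw [h1]
      _ = g⁻¹ * x * g * y := by group
  · intro h y hy
    rw [SetLike.mem_coe, mem_cj] at hy
    have h1 := h _ hy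
    calc y * x = g * (g⁻¹ * y * g * (g⁻¹ * x * g)) * g⁻¹ := by group
      _ = g * (g⁻¹ * x * g * (g⁻¹ * y * g)) * g⁻¹ := by rw [h1]
      _ = x * y := by group

theorem normalizer_cj (g : G) (P : Subgroup G) :
    Subgroup.normalizer (cj g P : Set G) = cj g (Subgroup.normalizer (P : Set G)) := by
  ext x
  rw [mem_cj, ← cj_eq_iff, ← cj_eq_iff, cj_cj]
  constructor
  · intro h
    have h1 := congrArg (cj g⁻¹) h
    rw [cj_cj, cj_cj] at h1
    have h2 : g⁻¹ * (x * g) = g⁻¹ * x * g := by group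
    have h3 : cj (g⁻¹ * g) P = P := by
      rw [inv_mul_cancel, cj_eq_iff]; exact Subgroup.one_mem _
    rw [h2, h3] at h1
    exact h1
  · intro h
    have h1 := congrArg (cj g) h
    rw [cj_cj] at h1
    have h2 : g * (g⁻¹ * x * g) = x * g := by group
    rw [h2] at h1
    exact h1

end Cfsg.Agent.H860.JM
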