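import Cfsg.Agent.H860.JM.Defs
import Cfsg.Agent.H860.JM.Cj
import Cfsg.Agent.S5567
import Cfsg.Agent.S5568
import Cfsg.Agent.H821.J4MaxB
import Cfsg.Agent.H337.JankoOfIso
import Cfsg.Agent.H859.BigPrime
import Cfsg.Agent.S5629
import Cfsg.Agent.H858.CentS

/-!
# The basic facts `F0` to `F4` of the 2-local geometry of `Spor.J4`
-/

set_option autoImplicit false

open Cfsg

namespace Cfsg.Agent.H860.JM

open Cfsg.Agent.J4.Invol (EJ s d)
open Cfsg.Agent.H858 Cfsg.Agent.H858.VK Cfsg.Agent.J4.Pres Cfsg.Agent.J4.M24Hom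
  Cfsg.Agent.H858.Data

/-- the group `Spor.J4` -/
local notation "𝒢" => Cfsg.Spor.J4

theorem isJ4 : Cfsg.IsJ4 𝒢 := Cfsg.Agent.S1703.result
theorem simple_J : IsSimpleGroup 𝒢 := isJ4.1
theorem finite_J : Finite 𝒢 := FixJ4.facts.1
theorem isJ : IsOfJankoFourType 𝒢 := H337.isOfJankoFourType_of_isoJ4 ⟨MulEquiv.refl _⟩

theorem EJ_sq {a : 𝒢} (ha : a ∈ EJ) : a * a = 1 := Cfsg.Agent.J4.Invol.EJ_sq rho_injective a ha
theorem EJ_comm {a b : 𝒢} (ha : a ∈ EJ) (hb : b ∈ EJ) : a * b = b * a :=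
  Cfsg.Agent.J4.Invol.EJ_comm rho_injective a b ha hb
theorem card_EJ : Nat.card EJ = 2 ^ 11 := Cfsg.Agent.J4.Invol.card_EJ rho_injective
theorem d_mem : d ∈ EJ := Cfsg.Agent.J4.Invol.d_mem rho_injective
theorem s_mem : s ∈ EJ := Cfsg.Agent.J4.Invol.s_mem rho_injective

theorem elem_EJ : IsElementaryAbelian 2 EJ :=
  ⟨⟨⟨fun a b => Subtype.ext (EJ_comm a.2 b.2)⟩⟩, fun a ha => by rw [pow_two]; exact EJ_sq ha⟩

theorem phi_mem (m : M24) : phi m ∈ Subgroup.normalizer (EJ : Set 𝒢) :=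
  phi_norm ⟨m, rfl⟩

theorem EJ_cases {e : 𝒢} (he : e ∈ EJ) (he1 : e ≠ 1) :
    ∃ m : M24, e = phi m * s * (phi m)⁻¹ ∨ e = phi m * d * (phi m)⁻¹ :=
  Cfsg.Agent.J4.Invol.EJ_cases rho_injective e he he1

theorem s_eq : s = V 1024 := rho_injective (by rw [Cfsg.Agent.J4.Invol.rho_s, rho_V])
theorem d_eq : d = V 5 := rho_injective (by rw [Cfsg.Agent.J4.Invol.rho_d, rho_V])

theorem s_ne : s ≠ 1 := by
  rw [s_eq, ← V_zero]
  intro h
  exact absurd (V_inj (by norm_num) (by norm_num) h) (by norm_num)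

theorem d_ne : d ≠ 1 := by
  rw [d_eq, ← V_zero]
  intro h
  exact absurd (V_inj (by norm_num) (by norm_num) h) (by norm_num)

theorem isConj_iff' {a b : 𝒢} : IsConj a b ↔ ∃ g, g * a * g⁻¹ = b := isConj_iff

theorem nonab : ¬ IsMulCommutative 𝒢 := by
  intro h
  have h1 : V 1 ≠ 1 := by
    rw [← V_zero]
    intro h
    exact absurd (V_inj (by norm_num) (by norm_num) h) (by norm_num)
  obtain ⟨m, hm⟩ := EJ_cases (V_mem 1) h1
  have h2 : ∀ a : 𝒢, phi m * a * (phi m)⁻¹ = a := fun a => by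
    rw [h.1.1 (phi m) a, mul_inv_cancel_right]
  rw [h2, h2, s_eq, d_eq] at hm
  rcases hm with hm | hm
  · exact absurd (V_inj (by norm_num) (by norm_num) hm) (by norm_num)
  · exact absurd (V_inj (by norm_num) (by norm_num) hm) (by norm_num)

/-! ### F1 -/

theorem invol {u : 𝒢} (h1 : u ≠ 1) (h2 : u * u = 1) : IsConj s u ∨ IsConj d u :=
  (Cfsg.Agent.J4Type.Final.invol isJ4 u h2 h1).imp IsConj.symm IsConj.symm

theorem sq_of_conj {a u : 𝒢} (ha : a ∈ EJ) (ha1 : a ≠ 1) (h : IsConj a u) : u ≠ 1 ∧ u * u = 1 := by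
  obtain ⟨g, rfl⟩ := isConj_iff.1 h
  refine ⟨fun h1 => ha1 ?_, ?_⟩
  · have h2 : a = g⁻¹ * (g * a * g⁻¹) * g := by group
    rw [h2, h1]; group
  · have h2 : g * a * g⁻¹ * (g * a * g⁻¹) = g * (a * a) * g⁻¹ := by group
    rw [h2, EJ_sq ha]; group

theorem elem_cj {g : 𝒢} {P : Subgroup 𝒢} (h : IsElementaryAbelian 2 P) :
    IsElementaryAbelian 2 (cj g P) := by
  refine ⟨⟨⟨fun a b => Subtype.ext ?_⟩⟩, fun a ha => ?_⟩
  · have ha := mem_cj.1 a.2
    have hb := mem_cj.1 b.2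
    have h1 := congrArg Subtype.val (h.1.1.1 ⟨_, ha⟩ ⟨_, hb⟩)
    have h2 : g⁻¹ * (a : 𝒢) * g * (g⁻¹ * b * g) = g⁻¹ * b * g * (g⁻¹ * a * g) := h1
    show (a : 𝒢) * b = b * a
    calc (a : 𝒢) * b = g * (g⁻¹ * (a : 𝒢) * g * (g⁻¹ * b * g)) * g⁻¹ := by group
      _ = g * (g⁻¹ * b * g * (g⁻¹ * a * g)) * g⁻¹ := by rw [h2]
      _ = b * a := by group
  · have h1 := h.2 _ (mem_cj.1 ha)
    rw [pow_two] at h1 ⊢
    calc a * a = g * (g⁻¹ * a * g * (g⁻¹ * a * g)) * g⁻¹ := by group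
      _ = 1 := by rw [h1]; group

theorem f1 : F1 geo where
  invol _ h1 h2 := invol h1 h2
  A_inv _ h := sq_of_conj s_mem s_ne h
  B_inv _ h := sq_of_conj d_mem d_ne h
  disj _ h1 h2 := Cfsg.Agent.J4.Invol.not_isConj_s_d (h1.trans h2.symm)
  A_conj g u h := h.trans (isConj_iff.2 ⟨g, rfl⟩)
  B_conj g u h := h.trans (isConj_iff.2 ⟨g, rfl⟩)
  Pt_conj := by
    rintro g _ ⟨h, rfl⟩
    exact ⟨g * h, cj_cj g h _⟩
  Ln_conj := by
    rintro g _ ⟨h, rfl⟩
    exact ⟨g * h, cj_cj g h _⟩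
  Xc_conj := by
    rintro g X ⟨h1, h2, h3⟩
    exact ⟨elem_cj h1, (card_cj g X).trans h2, by rw [centralizer_cj, h3]⟩

/-! ### The normalizer of `EJ` -/

theorem index_NEJ : (Subgroup.normalizer (EJ : Set 𝒢)).index = 173067389 := by
  have := simple_J
  have := finite_J
  obtain ⟨z, hz⟩ := isJ
  exact (Cfsg.Agent.S5629.result nonab z hz EJ elem_EJ card_EJ).1

theorem B_le : FixJ4.B ≤ Subgroup.normalizer (EJ : Set 𝒢) := by
  intro x hx
  obtain ⟨e, he, k, rfl⟩ := mem_B.1 hx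
  exact Subgroup.mul_mem _ (Subgroup.le_normalizer he) (phi_mem k)

theorem NEJ_eq : Subgroup.normalizer (EJ : Set 𝒢) = FixJ4.B := by
  have := finite_J
  refine (Subgroup.eq_of_le_of_card_ge B_le ?_).symm
  have h1 := (Subgroup.normalizer (EJ : Set 𝒢)).card_mul_index
  have h2 := FixJ4.B.card_mul_index
  rw [index_NEJ] at h1
  rw [FixJ4.index_B, ← h1] at h2
  exact (Nat.eq_of_mul_eq_mul_right (by norm_num) h2).ge

theorem card_NEJ : Nat.card (Subgroup.normalizer (EJ : Set 𝒢)) = 2 ^ 11 * 244823040 := by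
  rw [NEJ_eq, FixJ4.card_B]

/-! ### F2 -/

theorem f2 : F2 geo := by
  have := finite_J
  intro Q hQ
  have h2 : Fact (Nat.Prime 2) := ⟨Nat.prime_two⟩
  have h1 := hQ.card_modEq_card_fixedPoints (𝒢 ⧸ Subgroup.normalizer (EJ : Set 𝒢))
  have h3 : Nat.card (𝒢 ⧸ Subgroup.normalizer (EJ : Set 𝒢)) = 173067389 := index_NEJ
  rw [h3] at h1
  have h4 : 0 < Nat.card (MulAction.fixedPoints Q (𝒢 ⧸ Subgroup.normalizer (EJ : Set 𝒢))) := by
    rw [Nat.pos_iff_ne_zero]
    intro h0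
    rw [h0] at h1
    exact absurd h1 (by decide)
  obtain ⟨⟨⟨x, hx⟩⟩, -⟩ := Nat.card_pos_iff.1 h4
  obtain ⟨g, rfl⟩ := QuotientGroup.mk_surjective x
  refine ⟨cj g EJ, ⟨g, rfl⟩, fun q hq => ?_⟩
  rw [normalizer_cj, mem_cj]
  have h5 : ((q * g : 𝒢) : 𝒢 ⧸ Subgroup.normalizer (EJ : Set 𝒢)) = (g : 𝒢) := hx ⟨q, hq⟩
  rw [QuotientGroup.eq] at h5
  have h6 := Subgroup.inv_mem _ h5
  have h7 : ((q * g)⁻¹ * g)⁻¹ = g⁻¹ * q * g := by group
  rw [h7] at h6
  exact h6

/-! ### F3 -/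

theorem cent_EJ : Subgroup.centralizer (EJ : Set 𝒢) = EJ := by
  have := simple_J
  have := finite_J
  refine le_antisymm (Cfsg.Agent.S5567.result nonab isJ EJ elem_EJ card_EJ).1 ?_
  intro a ha
  rw [Subgroup.mem_centralizer_iff]
  exact fun b hb => EJ_comm hb ha

theorem El_of {P : Subgroup 𝒢} (h : IsElementaryAbelian 2 P) : El P :=
  ⟨fun a ha => by rw [← pow_two]; exact h.2 a ha,
    fun a ha b hb => congrArg Subtype.val (h.1.1.1 ⟨a, ha⟩ ⟨b, hb⟩)⟩

theorem f3 : F3 geo where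
  el := by
    rintro _ ⟨g, rfl⟩
    exact El_of (elem_cj elem_EJ)
  card := by
    rintro _ ⟨g, rfl⟩
    exact (card_cj g _).trans card_EJ
  self := by
    rintro _ ⟨g, rfl⟩
    rw [centralizer_cj, cent_EJ]
  exA := by
    rintro u hu
    obtain ⟨g, rfl⟩ := isConj_iff.1 hu
    exact ⟨cj g EJ, ⟨g, rfl⟩, mem_cj.2 (by
      have : g⁻¹ * (g * s * g⁻¹) * g = s := by group
      rw [this]; exact s_mem)⟩
  elX := fun X hX => El_of hX.1
  cardX := fun X hX => hX.2.1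
  selfX := fun X hX => hX.2.2

/-! ### The classes -/

theorem card_orbit_mul {G : Type*} [Group G] (N : Subgroup G) (u : G) :
    {v : G | ∃ n ∈ N, n * u * n⁻¹ = v}.ncard * Nat.card (N ⊓ Subgroup.centralizer {u} : Subgroup G) =
      Nat.card N := by
  let act : MulAction N G := MulAction.compHom G (MulAut.conj.comp N.subtype)
  have hs : ∀ n : N, n • u = (n : G) * u * (n : G)⁻¹ := fun n => rfl
  have h1 : {v : G | ∃ n ∈ N, n * u * n⁻¹ = v} = MulAction.orbit N u := by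
    ext v
    constructor
    · rintro ⟨n, hn, rfl⟩
      exact ⟨⟨n, hn⟩, rfl⟩
    · rintro ⟨n, rfl⟩
      exact ⟨n, n.2, rfl⟩
  have h2 : (N ⊓ Subgroup.centralizer {u} : Subgroup G) = (MulAction.stabilizer N u).map N.subtype := by
    ext x
    rw [Subgroup.mem_inf, Subgroup.mem_centralizer_singleton_iff, Subgroup.mem_map]
    constructor
    · rintro ⟨hx, hc⟩
      refine ⟨⟨x, hx⟩, ?_, rfl⟩
      rw [MulAction.mem_stabilizer_iff, hs]
      show x * u * x⁻¹ = u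
      rw [hc, mul_inv_cancel_right]
    · rintro ⟨n, hn, rfl⟩
      rw [MulAction.mem_stabilizer_iff, hs] at hn
      refine ⟨n.2, ?_⟩
      show (n : G) * u = u * n
      exact mul_inv_eq_iff_eq_mul.1 hn
  rw [h1, h2, Subgroup.card_map_of_injective N.subtype_injective, ← Nat.card_coe_set_eq,
    Nat.card_congr (MulAction.orbitEquivQuotientStabilizer N u)]
  exact (Subgroup.card_eq_card_quotient_mul_card_subgroup _).symm

theorem card_cent_of_conj {a b : 𝒢} (h : IsConj a b) :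
    Nat.card (Subgroup.centralizer ({a} : Set 𝒢)) = Nat.card (Subgroup.centralizer ({b} : Set 𝒢)) := by
  obtain ⟨g, rfl⟩ := isConj_iff.1 h
  refine Nat.card_congr (Equiv.subtypeEquiv (MulAut.conj g).toEquiv fun x => ?_)
  rw [Subgroup.mem_centralizer_singleton_iff, Subgroup.mem_centralizer_singleton_iff]
  show _ ↔ g * x * g⁻¹ * (g * a * g⁻¹) = g * a * g⁻¹ * (g * x * g⁻¹)
  constructor
  · intro h1
    calc g * x * g⁻¹ * (g * a * g⁻¹) = g * (x * a) * g⁻¹ := by group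
      _ = g * (a * x) * g⁻¹ := by rw [h1]
      _ = _ := by group
  · intro h1
    calc x * a = g⁻¹ * (g * x * g⁻¹ * (g * a * g⁻¹)) * g := by group
      _ = g⁻¹ * (g * a * g⁻¹ * (g * x * g⁻¹)) * g := by rw [h1]
      _ = _ := by group

/-- the involution of the hypothesis is conjugate to `s`, and the other class is that of `d` -/
theorem classes : ∃ z t : 𝒢, IsOfJankoFourTypeAt z ∧ IsConj s z ∧ t ∈ EJ ∧ IsConj d t ∧
    Subgroup.centralizer ({t} : Set 𝒢) ≤ Subgroup.normalizer (EJ : Set 𝒢) ∧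
    Nat.card (Subgroup.centralizer ({t} : Set 𝒢)) = 1816657920 := by
  have := simple_J
  have := finite_J
  obtain ⟨z, hz⟩ := isJ
  obtain ⟨z', t, hz', ht, ht1, hzz, hzt, -, h276, hc⟩ :=
    Cfsg.Agent.S5568.result nonab z hz EJ elem_EJ card_EJ
  have h1 := card_orbit_mul (Subgroup.normalizer (EJ : Set 𝒢)) t
  rw [h276, inf_eq_right.2 hc, card_NEJ] at h1
  have h2 : Nat.card (Subgroup.centralizer ({t} : Set 𝒢)) = 1816657920 := by omega
  have h3 : Nat.card (Subgroup.centralizer ({s} : Set 𝒢)) = 21799895040 := by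
    obtain ⟨P, hP⟩ := hz
    obtain ⟨Q, N, M, H, -, -⟩ := Cfsg.Agent.H856.ToHyp.exists_hyp hP
    exact CentS.card_cent_s H
  have h4 : IsConj d t := by
    rcases invol ht1 (EJ_sq ht) with h | h
    · have h5 := card_cent_of_conj h
      rw [h2, h3] at h5
      exact absurd h5 (by norm_num)
    · exact h
  have h6 : IsConj s z := by
    have hz2 : orderOf z = 2 := by
      obtain ⟨P, hP⟩ := hz
      exact hP.1
    rcases invol (u := z) (by rintro rfl; rw [orderOf_one] at hz2; exact absurd hz2 (by norm_num))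
      (by rw [← pow_two, ← hz2, pow_orderOf_eq_one]) with h | h
    · exact h
    · exact absurd (h.symm.trans h4) hzt
  exact ⟨z, t, hz, h6, ht, h4, hc, h2⟩

theorem cent_d_le : Subgroup.centralizer ({d} : Set 𝒢) ≤ Subgroup.normalizer (EJ : Set 𝒢) := by
  obtain ⟨z, t, hz, h1, h2, h3, h4, -⟩ := classes
  have ht1 : t ≠ 1 := (sq_of_conj d_mem d_ne h3).1
  -- `t` is conjugate to `d` in `N(EJ)`
  obtain ⟨m, hm | hm⟩ := EJ_cases h2 ht1
  · exact absurd ((isConj_iff.2 ⟨phi m, hm.symm⟩).trans h3.symm) Cfsg.Agent.J4.Invol.not_isConj_s_d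
  · intro x hx
    have h5 : phi m * x * (phi m)⁻¹ ∈ Subgroup.normalizer (EJ : Set 𝒢) := by
      apply h4
      rw [Subgroup.mem_centralizer_singleton_iff] at hx ⊢
      rw [hm]
      calc phi m * x * (phi m)⁻¹ * (phi m * d * (phi m)⁻¹) = phi m * (x * d) * (phi m)⁻¹ := by group
        _ = phi m * (d * x) * (phi m)⁻¹ := by rw [hx]
        _ = _ := by group
    have h6 := Subgroup.mul_mem _ (Subgroup.mul_mem _ (Subgroup.inv_mem _ (phi_mem m)) h5) (phi_mem m)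
    have h7 : (phi m)⁻¹ * (phi m * x * (phi m)⁻¹) * phi m = x := by group
    rw [h7] at h6
    exact h6

/-- a conjugate of `EJ` containing `d` is `EJ` -/
theorem norm_of_d_mem {g : 𝒢} (h : d ∈ cj g EJ) : g ∈ Subgroup.normalizer (EJ : Set 𝒢) := by
  rw [mem_cj] at h
  have h0 : IsConj d (g⁻¹ * d * g) := isConj_iff.2 ⟨g⁻¹, by group⟩
  obtain ⟨m, hm | hm⟩ := EJ_cases h (sq_of_conj d_mem d_ne h0).1
  · exact absurd ((isConj_iff.2 ⟨phi m, hm.symm⟩).trans h0.symm) Cfsg.Agent.J4.Invol.not_isConj_s_d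
  · have h1 : g * phi m ∈ Subgroup.centralizer ({d} : Set 𝒢) := by
      rw [Subgroup.mem_centralizer_singleton_iff]
      calc g * phi m * d = g * (phi m * d * (phi m)⁻¹) * phi m := by group
        _ = g * (g⁻¹ * d * g) * phi m := by rw [hm]
        _ = _ := by group
    have h2 := Subgroup.mul_mem _ (cent_d_le h1) (Subgroup.inv_mem _ (phi_mem m))
    have h3 : g * phi m * (phi m)⁻¹ = g := by group
    rw [h3] at h2
    exact h2

theorem f4 : F4 geo := by
  intro t ht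
  obtain ⟨g, rfl⟩ := isConj_iff.1 (show IsConj d t from ht)
  refine ⟨cj g EJ, ⟨g, rfl⟩, mem_cj.2 ?_, ?_, ?_⟩
  · have h : g⁻¹ * (g * d * g⁻¹) * g = d := by group
    rw [h]; exact d_mem
  · rintro _ ⟨k, rfl⟩ h
    have h1 : d ∈ cj (g⁻¹ * k) EJ := by
      rw [mem_cj] at h ⊢
      have h2 : (g⁻¹ * k)⁻¹ * d * (g⁻¹ * k) = k⁻¹ * (g * d * g⁻¹) * k := by group
      rw [h2]; exact h
    have h2 := cj_eq_iff.2 (norm_of_d_mem h1)
    have h3 := congrArg (cj g) h2
    rw [cj_cj] at h3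
    have h4 : g * (g⁻¹ * k) = k := by group
    rw [h4] at h3
    exact h3
  · intro x hx
    rw [normalizer_cj, mem_cj]
    apply cent_d_le
    rw [Subgroup.mem_centralizer_singleton_iff] at hx ⊢
    calc g⁻¹ * x * g * d = g⁻¹ * (x * (g * d * g⁻¹)) * g := by group
      _ = g⁻¹ * (g * d * g⁻¹ * x) * g := by rw [hx]
      _ = _ := by group

/-! ### F0 -/

theorem isPGroup_of_elem {P : Subgroup 𝒢} (h : El P) : IsPGroup 2 P := by
  intro x
  exact ⟨1, Subtype.ext (by rw [pow_one, pow_two]; exact h.sq x x.2)⟩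

theorem f0 : F0 geo := by
  have := finite_J
  have := simple_J
  intro e he
  rcases he with he | he
  · obtain ⟨z, t, hz, h1, -⟩ := classes
    have F := Cfsg.Agent.H821.J4MaxB.facts hz
    obtain ⟨g, rfl⟩ := isConj_iff.1 (h1.symm.trans he)
    set L := twoCoreOfCentralizer z with hL
    have hLz : L ≤ Subgroup.centralizer {z} := F.norm ▸ Subgroup.le_normalizer
    refine ⟨cj g L, ?_, ?_, ?_, ?_⟩
    · exact IsPGroup.of_card (n := 13) ((card_cj g L).trans F.card)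
    · intro x hx
      have h2 := hLz (mem_cj.1 hx)
      rw [Subgroup.mem_centralizer_singleton_iff] at h2 ⊢
      calc x * (g * z * g⁻¹) = g * (g⁻¹ * x * g * z) * g⁻¹ := by group
        _ = g * (z * (g⁻¹ * x * g)) * g⁻¹ := by rw [h2]
        _ = _ := by group
    · intro x hx
      rw [normalizer_cj, mem_cj, F.norm]
      rw [Subgroup.mem_centralizer_singleton_iff] at hx ⊢
      calc g⁻¹ * x * g * z = g⁻¹ * (x * (g * z * g⁻¹)) * g := by group
        _ = g⁻¹ * (g * z * g⁻¹ * x) * g := by rw [hx]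
        _ = _ := by group
    · rw [centralizer_cj]
      exact Subgroup.map_mono F.cent
  · obtain ⟨P, hP, h1, -, h3⟩ := f4 e he
    refine ⟨P, isPGroup_of_elem (f3.el P hP), ?_, h3, (f3.self P hP).le⟩
    intro x hx
    rw [Subgroup.mem_centralizer_singleton_iff]
    exact (f3.el P hP).comm x hx e h1

end Cfsg.Agent.H860.JM
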