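import Cfsg.Agent.H860.JM.Basic

/-!
# A 2-element commuting with a 2A element normalizes a point through it; the fact `F7`
-/

set_option autoImplicit false

open Cfsg

namespace Cfsg.Agent.H860.JM

open Cfsg.Agent.J4.Invol (EJ s d)
open Cfsg.Agent.H858 Cfsg.Agent.H858.VK Cfsg.Agent.J4.Pres Cfsg.Agent.J4.M24Hom
  Cfsg.Agent.H858.Data

/-- the group `Spor.J4` -/
local notation "𝒢" => Cfsg.Spor.J4

/-- there is a 2A element `z'` of `EJ` with `|C(z') : C(z') ∩ N(EJ)| = 77` -/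
theorem exists_77 : ∃ z' ∈ EJ, IsConj s z' ∧
    Nat.card (Subgroup.centralizer ({z'} : Set 𝒢)) = 21799895040 ∧
    Nat.card (Subgroup.normalizer (EJ : Set 𝒢) ⊓ Subgroup.centralizer ({z'} : Set 𝒢) : Subgroup 𝒢) =
      283115520 := by
  have := simple_J
  have := finite_J
  obtain ⟨z, -, hz, h6, -⟩ := classes
  obtain ⟨z', t, hz', ht, ht1, hzz, hzt, h1771, -, -⟩ :=
    Cfsg.Agent.S5568.result nonab z hz EJ elem_EJ card_EJ
  have h1 := card_orbit_mul (Subgroup.normalizer (EJ : Set 𝒢)) z'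
  rw [h1771, card_NEJ] at h1
  have h3 : Nat.card (Subgroup.centralizer ({z} : Set 𝒢)) = 21799895040 := by
    rw [(Cfsg.Agent.H821.J4MaxB.facts hz).card_cent]; norm_num
  refine ⟨z', hz', h6.trans hzz, ?_, by omega⟩
  rw [← card_cent_of_conj hzz, h3]

/-- **a 2-subgroup commuting with a 2A element `z` normalizes a point containing `z`** -/
theorem exists_pt_of_cent {z : 𝒢} (hz : IsConj s z) {Q : Subgroup 𝒢} (hQ : IsPGroup 2 Q)
    (hQz : Q ≤ Subgroup.centralizer ({z} : Set 𝒢)) :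
    ∃ P, geo.Pt P ∧ z ∈ P ∧ Q ≤ Subgroup.normalizer (P : Set 𝒢) := by
  have := finite_J
  have h2 : Fact (Nat.Prime 2) := ⟨Nat.prime_two⟩
  obtain ⟨z', hz', hc, h1, h3⟩ := exists_77
  obtain ⟨k, rfl⟩ := isConj_iff.1 (hc.symm.trans hz)
  set C := Subgroup.centralizer ({z'} : Set 𝒢) with hC
  set N := Subgroup.normalizer (EJ : Set 𝒢) with hN
  -- the conjugate of `Q` in `C(z')`
  set R : Subgroup 𝒢 := cj k⁻¹ Q with hR
  have hR2 : IsPGroup 2 R := hQ.map _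
  have hRC : R ≤ C := by
    intro x hx
    have h4 := hQz (mem_cj.1 hx)
    rw [hC, Subgroup.mem_centralizer_singleton_iff]
    rw [Subgroup.mem_centralizer_singleton_iff] at h4
    calc x * z' = k⁻¹ * ((k⁻¹)⁻¹ * x * k⁻¹ * (k * z' * k⁻¹)) * k := by group
      _ = k⁻¹ * (k * z' * k⁻¹ * ((k⁻¹)⁻¹ * x * k⁻¹)) * k := by rw [h4]
      _ = _ := by group
  have hR2' : IsPGroup 2 (R.subgroupOf C) := hR2.comap_subtype
  set H : Subgroup C := (N ⊓ C).subgroupOf C with hH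
  have hcardH : Nat.card H = 283115520 := by
    rw [hH, Nat.card_congr (Subgroup.subgroupOfEquivOfLe inf_le_right).toEquiv]
    exact h3
  have hidx : Nat.card (C ⧸ H) = 77 := by
    have h5 := Subgroup.card_eq_card_quotient_mul_card_subgroup H
    rw [h1, hcardH] at h5
    omega
  have h6 := hR2'.card_modEq_card_fixedPoints (C ⧸ H)
  rw [hidx] at h6
  have h4 : 0 < Nat.card (MulAction.fixedPoints (R.subgroupOf C) (C ⧸ H)) := by
    rw [Nat.pos_iff_ne_zero]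
    intro h0
    rw [h0] at h6
    exact absurd h6 (by decide)
  obtain ⟨⟨⟨x, hx⟩⟩, -⟩ := Nat.card_pos_iff.1 h4
  obtain ⟨g, rfl⟩ := QuotientGroup.mk_surjective x
  refine ⟨cj (k * g) EJ, ⟨_, rfl⟩, mem_cj.2 ?_, fun q hq => ?_⟩
  · have h7 : (k * (g : 𝒢))⁻¹ * (k * z' * k⁻¹) * (k * g) = (g : 𝒢)⁻¹ * (z' * g) := by group
    have h8 := Subgroup.mem_centralizer_singleton_iff.1 g.2
    rw [h7, ← h8, inv_mul_cancel_left]
    exact hz'
  · have hr : k⁻¹ * q * k ∈ R := by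
      rw [hR, mem_cj]
      have : (k⁻¹)⁻¹ * (k⁻¹ * q * k) * k⁻¹ = q := by group
      rw [this]; exact hq
    have h5 := hx ⟨⟨_, hRC hr⟩, hr⟩
    have h9 : (((⟨_, hRC hr⟩ : C) * g : C) : C ⧸ H) = (g : C ⧸ H) := h5
    rw [QuotientGroup.eq, hH, Subgroup.mem_subgroupOf] at h9
    have h10 := Subgroup.inv_mem _ h9.1
    rw [normalizer_cj, mem_cj]
    have h11 : (((((⟨_, hRC hr⟩ : C) * g)⁻¹ * g : C) : 𝒢))⁻¹ = (k * (g : 𝒢))⁻¹ * q * (k * g) := by
      show (((k⁻¹ * q * k) * (g : 𝒢))⁻¹ * g)⁻¹ = _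
      group
    rw [h11] at h10
    exact h10

/-- (F7) from the fact that for `w` as in `Act` every `v ∈ Fs` is in a common point with `w` -/
theorem f7_of (h : ∀ P w, geo.Pt P → Act geo P w → ∀ v ∈ Fs geo P w, ∃ P', geo.Pt P' ∧ v ∈ P' ∧ w ∈ P') :
    F7 geo := by
  intro z w hz hw hzw hA
  have hw2 := (f1.A_inv w hw).2
  have hQ : IsPGroup 2 (Subgroup.zpowers w) := by
    rintro ⟨x, hx⟩
    obtain ⟨n, rfl⟩ := hx
    refine ⟨1, Subtype.ext ?_⟩
    show (w ^ n) ^ (2 ^ 1) = 1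
    rw [← zpow_natCast, ← zpow_mul, mul_comm, zpow_mul, pow_one]
    have : w ^ ((2 : ℕ) : ℤ) = 1 := by rw [zpow_natCast, pow_two, hw2]
    rw [this, one_zpow]
  obtain ⟨P, hP, hzP, hwP⟩ := exists_pt_of_cent (z := z) hz hQ (by
    rw [Subgroup.zpowers_le, Subgroup.mem_centralizer_singleton_iff]
    exact hzw.symm)
  have hwN := hwP (Subgroup.mem_zpowers w)
  by_cases hmem : w ∈ P
  · exact ⟨P, hP, hzP, hmem⟩
  · exact h P w hP ⟨hwN, hmem, hw⟩ z ⟨hzP, hzw, Or.inr ⟨hz, hA⟩⟩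

end Cfsg.Agent.H860.JM
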