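import Cfsg.Agent.H322.JM.CaseB
import Cfsg.Agent.H546.JM.CaseA
import Cfsg.Agent.H919.JM.L3
import Cfsg.Agent.H172.JM.Top

/-!
# Part I: the maximal 2-local subgroups, abstract form
-/

set_option autoImplicit false

namespace Cfsg.Agent.H860.JM

theorem l3 {G : Type*} [Group G] [Finite G] (Γ : Geom G) (h : Facts Γ) : L3 Γ :=
  H919.JM.l3' h (fun _ _ _ hk => hk.mul)

/-- **a maximal subgroup with a nontrivial normal 2-subgroup is in one of the four classes** -/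
theorem good {G : Type*} [Group G] [Finite G] [IsSimpleGroup G] (hna : ¬ IsMulCommutative G)
    (Γ : Geom G) (h : Facts Γ) (M : Subgroup G) (hM : IsCoatom M) (Q₀ : Subgroup G) (h0 : Q₀ ≠ ⊥)
    (h2 : IsPGroup 2 Q₀) (hle : Q₀ ≤ M) (hn : M ≤ Subgroup.normalizer (Q₀ : Set G)) : Good Γ M :=
  H172.JM.two_local hna Γ h (H546.JM.caseA Γ h (H172.JM.ll Γ h) (H172.JM.pt Γ h))
    (H322.JM.caseB Γ h (H172.JM.ll Γ h) (H172.JM.pt Γ h) (l3 Γ h)) M hM Q₀ h0 h2 hle hn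

end Cfsg.Agent.H860.JM
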